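import Cfsg.Agent.H661.SC.NonPrin
import Cfsg.Agent.LThreeMB.Quo

/-!
# `NoCent` from the centralizer of an element of order `p` (S4526, helper680)

* `sylow_into` : if the full `p`-part of `|G|` divides `|C(g)|` then a conjugate of `g` commutes with `x` and with a Sylow
  `p`-subgroup of `C(x)`;
* `noCent_of_cent` : `C(x) → T` onto with kernel a `p`-group, `NoCent p T` implies `NoCent p G`.
-/

set_option autoImplicit false

namespace Cfsg.Agent.H680.IMC

open Subgroup Cfsg.Agent.H661.SC Cfsg.Agent.LThreeMB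

variable {p : ℕ} [hp : Fact p.Prime] {G : Type*} [Group G] [Finite G]

/-- a conjugate of `g` commutes with `x` and with a Sylow `p`-subgroup of `C(x)` -/
theorem sylow_into {g x : G} (hg : (Nat.card G).factorization p ≤ (Nat.card ↥(centralizer ({g} : Set G))).factorization p)
    (hx : ∃ k : ℕ, x ^ p ^ k = 1) :
    ∃ c : G, (c * g * c⁻¹) * x = x * (c * g * c⁻¹) ∧ ∃ R : Subgroup G, R ≤ centralizer ({x} : Set G) ∧
      R ≤ centralizer ({c * g * c⁻¹} : Set G) ∧
      Nat.card R = p ^ (Nat.card ↥(centralizer ({x} : Set G))).factorization p := by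
  obtain ⟨P₀⟩ : Nonempty (Sylow p ↥(centralizer ({g} : Set G))) := inferInstance
  let P : Subgroup G := (P₀ : Subgroup ↥(centralizer ({g} : Set G))).map (centralizer ({g} : Set G)).subtype
  have hPc : Nat.card P = p ^ (Nat.card ↥(centralizer ({g} : Set G))).factorization p := by
    rw [← P₀.card_eq_multiplicity]
    exact card_map_of_injective (subtype_injective _)
  have hle : (Nat.card ↥(centralizer ({g} : Set G))).factorization p ≤ (Nat.card G).factorization p :=
    (Nat.factorization_le_iff_dvd Nat.card_pos.ne' Nat.card_pos.ne').2 (card_subgroup_dvd_card _) p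
  have he := le_antisymm hle hg
  rw [he] at hPc
  have hPg : P ≤ centralizer ({g} : Set G) := by
    rintro _ ⟨a, -, rfl⟩
    exact a.2
  -- a Sylow subgroup of `C(x)`
  obtain ⟨R₀⟩ : Nonempty (Sylow p ↥(centralizer ({x} : Set G))) := inferInstance
  let R : Subgroup G := (R₀ : Subgroup ↥(centralizer ({x} : Set G))).map (centralizer ({x} : Set G)).subtype
  have hRc : Nat.card R = p ^ (Nat.card ↥(centralizer ({x} : Set G))).factorization p := by
    rw [← R₀.card_eq_multiplicity]
    exact card_map_of_injective (subtype_injective _)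
  have hRx : R ≤ centralizer ({x} : Set G) := by
    rintro _ ⟨a, -, rfl⟩
    exact a.2
  have hRp : IsPGroup p R := R₀.isPGroup'.map _
  have hxR : x ∈ R := by
    have h1 : IsPGroup p (zpowers (self x)) := by
      obtain ⟨k, hk⟩ := hx
      rw [IsPGroup.iff_card]
      have h2 : orderOf (self x) ∣ p ^ k := orderOf_dvd_of_pow_eq_one (Subtype.ext hk)
      obtain ⟨j, -, hj⟩ := (Nat.dvd_prime_pow hp.out).1 h2
      exact ⟨j, by rw [Nat.card_zpowers, hj]⟩
    have h2 : (zpowers (self x)).Normal := by
      constructor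
      intro n hn a
      have h3 : zpowers (self x) ≤ center ↥(centralizer ({x} : Set G)) := by
        rw [zpowers_le]; exact self_mem_center x
      have h4 := mem_center_iff.1 (h3 hn) a
      rw [h4, mul_inv_cancel_right]
      exact hn
    have h3 := h1.le_sylow_of_normal R₀
    exact ⟨self x, h3 (mem_zpowers _), rfl⟩
  obtain ⟨Q, hQ⟩ := hRp.exists_le_sylow
  have hPp : IsPGroup p P := IsPGroup.of_card hPc
  let PS : Sylow p G := Sylow.ofCard P hPc
  obtain ⟨c, hc⟩ := MulAction.exists_smul_eq G PS Q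
  have hconj : ∀ r ∈ R, c⁻¹ * r * c ∈ P := by
    intro r hr
    have h1 : r ∈ (Q : Subgroup G) := hQ hr
    rw [← hc, Sylow.coe_subgroup_smul, mem_smul_pointwise_iff_exists] at h1
    obtain ⟨s, hs, hsr⟩ := h1
    have h2 : c * s * c⁻¹ = r := hsr
    rw [← h2]
    have h3 : c⁻¹ * (c * s * c⁻¹) * c = s := by group
    rw [h3]
    exact hs
  have key : ∀ r ∈ R, (c * g * c⁻¹) * r = r * (c * g * c⁻¹) := by
    intro r hr
    have h1 := mem_centralizer_singleton_iff.1 (hPg (hconj r hr))
    calc (c * g * c⁻¹) * r = c * (g * (c⁻¹ * r * c)) * c⁻¹ := by group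
      _ = c * ((c⁻¹ * r * c) * g) * c⁻¹ := by rw [h1]
      _ = r * (c * g * c⁻¹) := by group
  refine ⟨c, key x hxR, R, hRx, ?_, hRc⟩
  intro r hr
  rw [mem_centralizer_singleton_iff]
  exact (key r hr).symm

/-- **`NoCent` from `C(x)`.** -/
theorem noCent_of_cent {x : G} (hx : ∃ k : ℕ, x ^ p ^ k = 1) {T : Type*} [Group T] [Finite T]
    (f : ↥(centralizer ({x} : Set G)) →* T) (hf : Function.Surjective f) (hker : IsPGroup p f.ker)
    (hT : NoCent p T) : NoCent p G := by
  intro g hgo hg
  obtain ⟨c, hcx, R, hRx, hRg, hRc⟩ := sylow_into hg hx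
  set g' := c * g * c⁻¹ with hg'
  have ho : orderOf g' = orderOf g := by
    have := MulEquiv.orderOf_eq (MulAut.conj c) g
    rwa [MulAut.conj_apply] at this
  let y : ↥(centralizer ({x} : Set G)) := ⟨g', mem_centralizer_singleton_iff.2 hcx⟩
  have hyo : orderOf y = orderOf g := by rw [← ho]; exact Subgroup.orderOf_mk _ _
  let R' : Subgroup ↥(centralizer ({x} : Set G)) := R.subgroupOf (centralizer ({x} : Set G))
  have hR'c : Nat.card R' = p ^ (Nat.card ↥(centralizer ({x} : Set G))).factorization p := by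
    rw [← hRc]
    exact Nat.card_congr (subgroupOfEquivOfLe hRx).toEquiv
  have hfR : R'.map f ≤ centralizer ({f y} : Set T) := by
    rintro _ ⟨r, hr, rfl⟩
    rw [mem_centralizer_singleton_iff, ← map_mul, ← map_mul]
    congr 1
    exact Subtype.ext (mem_centralizer_singleton_iff.1 (hRg hr))
  -- the `p`-part of `|T|` divides `|f(R')|`
  obtain ⟨k, hk⟩ := (IsPGroup.iff_card).1 hker
  have hcard : Nat.card ↥(centralizer ({x} : Set G)) = Nat.card T * p ^ k := by
    rw [← hk, Subgroup.card_eq_card_quotient_mul_card_subgroup f.ker,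
      Nat.card_congr (QuotientGroup.quotientKerEquivOfSurjective f hf).toEquiv]
  have hfac : (Nat.card ↥(centralizer ({x} : Set G))).factorization p = (Nat.card T).factorization p + k := by
    rw [hcard, Nat.factorization_mul Nat.card_pos.ne' (pow_pos hp.out.pos k).ne', Finsupp.add_apply,
      hp.out.factorization_pow, Finsupp.single_eq_same]
  have h1 : Nat.card R' ∣ Nat.card (R'.map f) * p ^ k := by
    have h2 := (f.comp R'.subtype).ker.card_mul_index
    rw [Subgroup.index_ker] at h2
    have h3 : Nat.card (f.comp R'.subtype).range = Nat.card (R'.map f) := by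
      rw [MonoidHom.range_comp, Subgroup.range_subtype]
    have h4 : Nat.card (f.comp R'.subtype).ker ∣ p ^ k := by
      rw [← hk]
      have h5 : (f.comp R'.subtype).ker.map R'.subtype ≤ f.ker := by
        rintro _ ⟨a, ha, rfl⟩
        exact ha
      have h6 : Nat.card ((f.comp R'.subtype).ker.map R'.subtype) = Nat.card (f.comp R'.subtype).ker :=
        card_map_of_injective (subtype_injective _)
      rw [← h6]
      exact card_dvd_of_le h5
    rw [← h2, h3, mul_comm]
    exact mul_dvd_mul_left _ h4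
  rw [hR'c, hfac, pow_add] at h1
  have h2 : p ^ (Nat.card T).factorization p ∣ Nat.card (R'.map f) :=
    Nat.dvd_of_mul_dvd_mul_right (pow_pos hp.out.pos k) h1
  have h3 : p ^ (Nat.card T).factorization p ∣ Nat.card ↥(centralizer ({f y} : Set T)) := h2.trans (card_dvd_of_le hfR)
  have h4 : f y = 1 := by
    refine hT (f y) (fun hd => hgo ?_) ((hp.out.pow_dvd_iff_le_factorization Nat.card_pos.ne').1 h3)
    exact (hd.trans (orderOf_map_dvd f y)).trans (by rw [hyo])
  obtain ⟨j, hj⟩ := hker ⟨y, h4⟩
  have h5 : y ^ p ^ j = 1 := congrArg Subtype.val hj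
  have h6 : orderOf g ∣ p ^ j := by rw [← hyo]; exact orderOf_dvd_of_pow_eq_one h5
  obtain ⟨i, -, hi⟩ := (Nat.dvd_prime_pow hp.out).1 h6
  rcases Nat.eq_zero_or_pos i with h0 | h0
  · rw [h0, pow_zero] at hi
    exact orderOf_eq_one_iff.1 hi
  · exact absurd (by rw [hi]; exact dvd_pow_self p h0.ne') hgo

/-- **`NoCent` from `C(x) / ⟨x⟩`.** -/
theorem noCent_of_XX {x : G} (hx : orderOf x = p) {T : Type*} [Group T] [Finite T] (e : XX x ≃* T)
    (hT : NoCent p T) : NoCent p G := by
  refine noCent_of_cent (x := x) ⟨1, by rw [pow_one, ← hx, pow_orderOf_eq_one]⟩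
    (e.toMonoidHom.comp (QuotientGroup.mk' (Zx x))) (e.surjective.comp (QuotientGroup.mk'_surjective _)) ?_ hT
  have h1 : (e.toMonoidHom.comp (QuotientGroup.mk' (Zx x))).ker = Zx x := by
    rw [← MonoidHom.comap_ker, (MonoidHom.ker_eq_bot_iff e.toMonoidHom).2 e.injective, MonoidHom.comap_bot,
      QuotientGroup.ker_mk']
  rw [h1]
  refine IsPGroup.of_card (n := 1) ?_
  rw [Zx, Nat.card_zpowers, self, Subgroup.orderOf_mk, hx, pow_one]

end Cfsg.Agent.H680.IMC
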